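import Cfsg.Agent.H371.P4.Tor
import Cfsg.Agent.H371.Core.ExcTwo
import Cfsg.Agent.H378.RegFin

/-!
# S3591: `E₆(v)`, `E₇(v)` (helper371)
-/

set_option autoImplicit false
set_option linter.unusedSectionVars false

universe u

namespace Cfsg.Agent.H371.P4

open CoxeterSystem Subgroup Cfsg Cfsg.Lie Cfsg.Lie.ChevalleyDatum
open Cfsg.Agent.ChevalleyStructure.CoxeterGeomTypes
open Cfsg.Agent.Nodes.RGDChev
open Cfsg.Agent.BpExc.RowsUntw Cfsg.Agent.BpExc.FamInst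
open Cfsg.Agent.H378 Cfsg.Agent.H378.SmallTor Cfsg.Agent.H378.AdjTab Cfsg.Agent.H378.CycTab Cfsg.Agent.H378.ExcAdj
open Cfsg.Agent.H379.P4 Cfsg.Agent.H371.CycEval
open Cfsg.Agent.H129.WData Cfsg.Agent.H493.PGTorus

variable {p q : ℕ}

theorem cop_three {M : ℕ} (h : (M : ZMod 3) ≠ 0) : Nat.Coprime M 3 := by
  rw [Nat.coprime_comm, Nat.Prime.coprime_iff_not_dvd Nat.prime_three]
  intro h1
  exact h ((ZMod.natCast_eq_zero_iff M 3).2 h1)

theorem num_e6 {v R N : ℤ} (hv : 2 ≤ v) (hR : R ≤ v ^ 6 + v ^ 3 + 1)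
    (hN : N = (v ^ 4 + v ^ 3 + v ^ 2 + v + 1) * (v ^ 4 + 1) * (v ^ 4 - v ^ 2 + 1)) :
    R ≤ 2 * v ^ 6 ∧ 2 * (2 * v ^ 6) ^ 3 ≤ N ^ 2 := by
  have hv0 : 0 ≤ v := by linarith
  have hy : 64 ≤ v ^ 6 := by
    calc (64 : ℤ) = 2 ^ 6 := by norm_num
      _ ≤ v ^ 6 := pow_le_pow_left₀ (by norm_num) hv 6
  have hv3 : 8 ≤ v ^ 3 := by
    calc (8 : ℤ) = 2 ^ 3 := by norm_num
      _ ≤ v ^ 3 := pow_le_pow_left₀ (by norm_num) hv 3
  have hv2 : 4 ≤ v ^ 2 := by nlinarith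
  have h33 : v ^ 6 = v ^ 3 * v ^ 3 := by ring
  refine ⟨by nlinarith, ?_⟩
  have a1 : v ^ 4 ≤ v ^ 4 + v ^ 3 + v ^ 2 + v + 1 := by linarith
  have a2 : v ^ 4 ≤ v ^ 4 + 1 := by linarith
  have a3 : v ^ 4 ≤ 2 * (v ^ 4 - v ^ 2 + 1) := by
    have : v ^ 4 = v ^ 2 * v ^ 2 := by ring
    nlinarith
  have hp4 : 0 ≤ v ^ 4 := by positivity
  have hN2 : v ^ 6 * v ^ 6 ≤ 2 * N := by
    calc v ^ 6 * v ^ 6 = v ^ 4 * v ^ 4 * v ^ 4 := by ring
      _ ≤ (v ^ 4 + v ^ 3 + v ^ 2 + v + 1) * (v ^ 4 + 1) * (2 * (v ^ 4 - v ^ 2 + 1)) :=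
          mul_le_mul (mul_le_mul a1 a2 hp4 (by positivity)) a3 hp4 (by positivity)
      _ = 2 * N := by rw [hN]; ring
  clear hN a1 a2 a3 hp4 h33 hv3 hv2 hR
  generalize v ^ 6 = y at *
  have h1 : (y * y) ^ 2 ≤ (2 * N) ^ 2 := pow_le_pow_left₀ (by positivity) hN2 2
  have h2 : 64 * y ^ 3 ≤ (y * y) ^ 2 := by
    have h3 : 0 ≤ y ^ 3 := by positivity
    have h4 : (y * y) ^ 2 = y ^ 3 * y := by ring
    rw [h4, mul_comm]
    exact mul_le_mul_of_nonneg_left hy h3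
  have h5 : (2 * N) ^ 2 = 4 * N ^ 2 := by ring
  have h6 : 2 * (2 * y) ^ 3 = 16 * y ^ 3 := by ring
  rw [h6]
  linarith

theorem e6 {p q : ℕ} (hP : Par p q) {F : Type u} [Field F] [Fintype F] (h : Hyp p q ↥(Cfsg.Lie.chevE6.group F)) :
    False := by
  obtain ⟨v, hv⟩ : ∃ v, Nat.card F = v := ⟨_, rfl⟩
  have hv2 : 2 ≤ v := by rw [← hv]; exact Finite.one_lt_card
  have hvz : (2 : ℤ) ≤ v := by exact_mod_cast hv2
  have hod : ∀ r : ℕ, r.Prime → r ∣ R q → od v r = 9 := by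
    intro r hr hrR
    rw [← hv]
    rcases ExcNear.near_E6 F hr (hrR.trans h.dvd_card) with h1 | h1
    · exact absurd h1.conn.symm (not_conn_two hP h hrR)
    · exact h1
  have hcop : ∀ {M k : ℕ}, M ∣ v ^ k - 1 → ¬ 9 ∣ k → Nat.Coprime (R q) M := fun hM hk =>
    cop_of (by omega) hod hM hk
  have d1 : (1 : ℤ) < (v : ℤ) ^ 2 := by nlinarith
  have d2 : (1 : ℤ) < (v : ℤ) ^ 4 := by nlinarith
  obtain ⟨M5, hM5⟩ := exists_nat (x := (v : ℤ) ^ 4 + v ^ 3 + v ^ 2 + v + 1) (by positivity)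
  obtain ⟨M8, hM8⟩ := exists_nat (x := (v : ℤ) ^ 4 + 1) (by positivity)
  obtain ⟨M12, hM12⟩ := exists_nat (x := (v : ℤ) ^ 4 - v ^ 2 + 1) (by nlinarith)
  have k5 : Nat.Coprime M5 3 := cop_three (by
    have := congrArg (Int.cast : ℤ → ZMod 3) hM5
    push_cast at this
    rw [this]
    exact (by decide : ∀ x : ZMod 3, x ^ 4 + x ^ 3 + x ^ 2 + x + 1 ≠ 0) _)
  have k8 : Nat.Coprime M8 3 := cop_three (by
    have := congrArg (Int.cast : ℤ → ZMod 3) hM8
    push_cast at this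
    rw [this]
    exact (by decide : ∀ x : ZMod 3, x ^ 4 + 1 ≠ 0) _)
  have k12 : Nat.Coprime M12 3 := cop_three (by
    have := congrArg (Int.cast : ℤ → ZMod 3) hM12
    push_cast at this
    rw [this]
    exact (by decide : ∀ x : ZMod 3, x ^ 4 - x ^ 2 + 1 ≠ 0) _)
  have g5 := exists_orderOf_d e6T three_ne_zero inv_E6 AdjE6.hA AdjE6.row5.1 AdjE6.row5.2.2 (F := F) (N := M5)
    (by rw [pv5, hv, hM5]) (by rw [pv5, hv]; positivity) k5
  have g8 := exists_orderOf_d e6T three_ne_zero inv_E6 AdjE6.hA AdjE6.chain8 AdjE6.tor8_8 (F := F) (N := M8)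
    (by rw [pv8, hv, hM8]) (by rw [pv8, hv]; positivity) k8
  have g12 := exists_orderOf_d e6T three_ne_zero inv_E6 AdjE6.hA AdjE6.chain12 AdjE6.tor12_12 (F := F) (N := M12)
    (by rw [pv12, hv, hM12]) (by rw [pv12, hv]; nlinarith) k12
  have L5 : Lam p q M5 := h.lam hP g5 (Or.inl (hcop (k := 5)
    (dvd_pow_sub_one (by omega) (c := (v : ℤ) - 1) (by rw [hM5]; ring)) (by norm_num)))
  have L8 : Lam p q M8 := h.lam hP g8 (Or.inl (hcop (k := 8)
    (dvd_pow_sub_one (by omega) (c := (v : ℤ) ^ 4 - 1) (by rw [hM8]; ring)) (by norm_num)))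
  have L12 : Lam p q M12 := h.lam hP g12 (Or.inl (hcop (k := 12)
    (dvd_pow_sub_one (by omega) (c := ((v : ℤ) ^ 2 + 1) * ((v : ℤ) ^ 6 - 1)) (by rw [hM12]; ring)) (by norm_num)))
  have c58 : Nat.Coprime M5 M8 := cop_int (x := (-1) * (v : ℤ) ^ 1 + 1 * (v : ℤ) ^ 2 + (-1) * (v : ℤ) ^ 3)
    (y := 1 + 1 * (v : ℤ) ^ 1 + 1 * (v : ℤ) ^ 3) (by rw [hM5, hM8]; ring)
  have c512 : Nat.Coprime M5 M12 := cop_int
    (x := 2 + (-1) * (v : ℤ) ^ 1 + (-2) * (v : ℤ) ^ 2 + 2 * (v : ℤ) ^ 3)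
    (y := (-1) + (-1) * (v : ℤ) ^ 1 + (-2) * (v : ℤ) ^ 3) (by rw [hM5, hM12]; ring)
  have c812 : Nat.Coprime M8 M12 := cop_int (x := 1 + (-1) * (v : ℤ) ^ 2) (y := 1 * (v : ℤ) ^ 2)
    (by rw [hM8, hM12]; ring)
  have L := (L5.mul L8 c58).mul L12 (Nat.Coprime.mul_left c512 c812)
  obtain ⟨r, hr, hr2, hrR, hrS⟩ := h.exists_prime hP
  have hRd : R q ∣ ((Polynomial.cyclotomic 9 ℤ).eval ((Nat.card F : ℕ) : ℤ)).natAbs := by
    refine R_dvd hP h hrR fun x hx => ?_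
    exact (RegFin.cent_od e6T inv_E6 three_ne_zero hr hx (by rw [hv]; exact hod r hr hrR) (by decide) (by norm_num)).2
  have hR9 : (R q : ℤ) ≤ (v : ℤ) ^ 6 + (v : ℤ) ^ 3 + 1 := by
    have h9 := ev9 (v : ℤ)
    have hpos : 0 < (v : ℤ) ^ 6 + (v : ℤ) ^ 3 + 1 := by positivity
    rw [hv] at hRd
    change R q ∣ (ev 9 (v : ℤ)).natAbs at hRd
    rw [h9] at hRd
    have h1 := Nat.le_of_dvd (Int.natAbs_pos.2 hpos.ne') hRd
    have h2 : ((R q : ℕ) : ℤ) ≤ (((v : ℤ) ^ 6 + (v : ℤ) ^ 3 + 1).natAbs : ℤ) := by exact_mod_cast h1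
    rwa [Int.natCast_natAbs, abs_of_pos hpos] at h2
  have hb : ((M5 * M8 * M12 : ℕ) : ℤ) = ((v : ℤ) ^ 4 + v ^ 3 + v ^ 2 + v + 1) * ((v : ℤ) ^ 4 + 1) *
      ((v : ℤ) ^ 4 - v ^ 2 + 1) := by
    push_cast; rw [hM5, hM8, hM12]
  obtain ⟨n1, n2⟩ := num_e6 hvz hR9 (N := ((M5 * M8 * M12 : ℕ) : ℤ)) hb
  exact size_false hP L n1 le_rfl (by positivity) n2

/-- `R` a divisor of a product of two primes -/
theorem dvd_two_primes {S : Type u} [Group S] {a b N' : ℕ} (ha : a.Prime) (hb : b.Prime) (hP : Par p q)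
    (h : Hyp p q S) (hN : Nat.card S = (a * b) * N') (h1 : ∀ r : ℕ, r.Prime → r ∣ R q → r = a ∨ r = b)
    (h2 : ¬ a ∣ N' ∧ ¬ b ∣ N') : R q = a ∨ R q = b ∨ R q = a * b := by
  have h3 : R q ∣ a * b := by
    refine dvd_of_coprime (b := N') (by rw [← hN]; exact h.dvd_card) ?_
    intro r hr hrR
    rcases h1 r hr hrR with rfl | rfl
    · exact h2.1
    · exact h2.2
  have hR := hP.R_big
  obtain ⟨x, y, hx, hy, hxy⟩ := (Nat.dvd_mul).1 h3
  rcases (Nat.dvd_prime ha).1 hx with rfl | rfl <;> rcases (Nat.dvd_prime hb).1 hy with rfl | rfl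
  · omega
  · right; left; rw [← hxy, one_mul]
  · left; rw [← hxy, mul_one]
  · right; right; rw [← hxy]

/-- `E₇(v)` -/
theorem e7 {p q : ℕ} (hP : Par p q) {F : Type u} [Field F] [Fintype F] (h : Hyp p q ↥(Cfsg.Lie.chevE7.group F)) :
    False := by
  have hcard := Cfsg.Agent.S1064.result (F := F) rfl
  rw [← Nat.card_eq_fintype_card] at hcard
  have hnear : ∀ r : ℕ, r.Prime → r ∣ R q → Nat.card F ≤ 3 ∧ (od (Nat.card F) r = 7 ∨ od (Nat.card F) r = 9) := by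
    intro r hr hrR
    rcases ExcNear.near_E7 (F := F) hr (hrR.trans h.dvd_card) with h1 | h1
    · exact absurd h1.conn.symm (not_conn_two hP h hrR)
    · exact h1
  obtain ⟨r₀, hr₀, -, hr₀R, -⟩ := h.exists_prime hP
  have h3 := (hnear r₀ hr₀ hr₀R).1
  have h1 : 1 < Nat.card F := Finite.one_lt_card
  rcases (by omega : Nat.card F = 2 ∨ Nat.card F = 3) with hF | hF
  · rw [hF] at hcard hnear
    have hN : Nat.card ↥(chevE7.group F) = (127 * 73) * 862633593148074615370562750801510400 := by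
      norm_num at hcard
      rw [hcard]
    have hpr : ∀ r : ℕ, r.Prime → r ∣ R q → r = 127 ∨ r = 73 := by
      intro r hr hrR
      rcases (hnear r hr hrR).2 with h7 | h7
      · left
        have h8 := H378.CycTab.dvd7 hr h7
        rw [H378.CycTab.pv7] at h8
        norm_num at h8
        have h8 : r ∣ 127 := by exact_mod_cast h8
        exact (Nat.prime_dvd_prime_iff_eq hr (by norm_num)).1 h8
      · right
        have h8 := H378.CycTab.dvd9 hr h7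
        rw [H378.CycTab.pv9] at h8
        norm_num at h8
        have h8 : r ∣ 73 := by exact_mod_cast h8
        exact (Nat.prime_dvd_prime_iff_eq hr (by norm_num)).1 h8
    rcases dvd_two_primes (by norm_num) (by norm_num) hP h hN hpr (by norm_num) with h2 | h2 | h2
    · exact R_not hP h2 11 15 (by norm_num)
    · exact R_not hP h2 8 12 (by norm_num)
    · exact R_not hP h2 96 136 (by norm_num)
  · rw [hF] at hcard hnear
    have hN : Nat.card ↥(chevE7.group F) =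
        (1093 * 757) * 1536588953624828519956441617956736388467477322085380915200 := by
      norm_num at hcard
      omega
    have hpr : ∀ r : ℕ, r.Prime → r ∣ R q → r = 1093 ∨ r = 757 := by
      intro r hr hrR
      rcases (hnear r hr hrR).2 with h7 | h7
      · left
        have h8 := H378.CycTab.dvd7 hr h7
        rw [H378.CycTab.pv7] at h8
        norm_num at h8
        have h8 : r ∣ 1093 := by exact_mod_cast h8
        exact (Nat.prime_dvd_prime_iff_eq hr (by norm_num)).1 h8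
      · right
        have h8 := H378.CycTab.dvd9 hr h7
        rw [H378.CycTab.pv9] at h8
        norm_num at h8
        have h8 : r ∣ 757 := by exact_mod_cast h8
        exact (Nat.prime_dvd_prime_iff_eq hr (by norm_num)).1 h8
    rcases dvd_two_primes (by norm_num) (by norm_num) hP h hN hpr (by norm_num) with h2 | h2 | h2
    · exact R_not hP h2 33 46 (by norm_num)
    · exact R_not hP h2 27 38 (by norm_num)
    · exact R_not hP h2 909 1286 (by norm_num)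

end Cfsg.Agent.H371.P4
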