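import Cfsg.Agent.H371.P4.Tor
import Cfsg.Agent.H371.Core.Fam

/-!
# S3591: `F₄(v)` (helper371)
-/

set_option autoImplicit false
set_option linter.unusedSectionVars false

universe u

namespace Cfsg.Agent.H371.P4

open CoxeterSystem Subgroup Cfsg Cfsg.Lie Cfsg.Lie.ChevalleyDatum
open Cfsg.Agent.ChevalleyStructure.CoxeterGeomTypes
open Cfsg.Agent.Nodes.RGDChev
open Cfsg.Agent.BpExc.RowsUntw Cfsg.Agent.BpExc.FamInst
open Cfsg.Agent.H378 Cfsg.Agent.H378.SmallTor Cfsg.Agent.H378.AdjTab Cfsg.Agent.H378.CycTab Cfsg.Agent.H378.ExcAdj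
open Cfsg.Agent.H379.P4 Cfsg.Agent.H371.CycEval
open Cfsg.Agent.H371.Core (Tor tor_F4_8 tor_F4_12 exists_orderOf_tor)
open Cfsg.Agent.H129.WData Cfsg.Agent.H493.PGTorus

variable {p q : ℕ}

theorem order_F4 (F : Type u) [Field F] [Finite F] {M3 M6 : ℕ} (h3 : (M3 : ℤ) = (Nat.card F : ℤ) ^ 2 + Nat.card F + 1)
    (h6 : (M6 : ℤ) = (Nat.card F : ℤ) ^ 2 - Nat.card F + 1) :
    (∃ g : ↥(chevF4.group F), orderOf g = M3) ∧ (∃ g : ↥(chevF4.group F), orderOf g = M6) := by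
  let cs : CoxeterSystem CoxeterMatrix.F₄ CoxeterMatrix.F₄.Group := CoxeterMatrix.F₄.toCoxeterSystem
  have := finite_W f4T cs
  have hF : 1 < Nat.card F := Finite.one_lt_card
  have hF' : (1 : ℤ) < Nat.card F := by exact_mod_cast hF
  constructor
  · refine exists_orderOf_tor f4T cs inv_F4 AdjF4.hA AdjF4.row3.1 AdjF4.row3.2.2 ?_ ?_
    · rcases Nat.eq_zero_or_pos M3 with h0 | h0
      · rw [h0] at h3
        push_cast at h3
        nlinarith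
      · exact h0
    · rw [pv3, h3]
  · refine exists_orderOf_tor f4T cs inv_F4 AdjF4.hA AdjF4.row6.1 AdjF4.row6.2.2 ?_ ?_
    · rcases Nat.eq_zero_or_pos M6 with h0 | h0
      · rw [h0] at h6
        push_cast at h6
        nlinarith
      · exact h0
    · rw [pv6, h6]

theorem f4 {p q : ℕ} (hP : Par p q) {F : Type u} [Field F] [Fintype F] (h : Hyp p q ↥(Cfsg.Lie.chevF4.group F)) :
    False := by
  obtain ⟨v, hv⟩ : ∃ v, Nat.card F = v := ⟨_, rfl⟩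
  have hv2 : 2 ≤ v := by rw [← hv]; exact Finite.one_lt_card
  have hvz : (2 : ℤ) ≤ v := by exact_mod_cast hv2
  have hod : ∀ r : ℕ, r.Prime → r ∣ R q → od v r = 8 ∨ od v r = 12 := by
    intro r hr hrR
    rw [← hv]
    rcases adj_F4 F hr (hrR.trans h.dvd_card) with h1 | h1 | h1
    · exact absurd (h1 ▸ hrR) hP.two
    · exact absurd h1 (not_adj_two hP h hr hrR)
    · exact h1
  have hcop : ∀ {M k : ℕ}, M ∣ v ^ k - 1 → ¬ 4 ∣ k → Nat.Coprime (R q) M := by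
    intro M k hM hk
    refine Nat.coprime_of_dvd fun r hr h1 h2 => hk ?_
    have h3 := od_dvd (by omega) (h2.trans hM)
    rcases hod r hr h1 with h4 | h4 <;> rw [h4] at h3
    · exact (by norm_num : 4 ∣ 8).trans h3
    · exact (by norm_num : 4 ∣ 12).trans h3
  obtain ⟨M3, hM3⟩ := exists_nat (x := (v : ℤ) ^ 2 + v + 1) (by positivity)
  obtain ⟨M6, hM6⟩ := exists_nat (x := (v : ℤ) ^ 2 - v + 1) (by nlinarith)
  obtain ⟨g3, g6⟩ := order_F4 F (M3 := M3) (M6 := M6) (by rw [hv, hM3]) (by rw [hv, hM6])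
  have T8 := tor_F4_8 F
  have T12 := tor_F4_12 F
  obtain ⟨M8, hM8⟩ : ∃ M8, (ev 8 (Nat.card F : ℕ)).natAbs = M8 := ⟨_, rfl⟩
  obtain ⟨M12, hM12⟩ : ∃ M12, (ev 12 (Nat.card F : ℕ)).natAbs = M12 := ⟨_, rfl⟩
  have h8 : (M8 : ℤ) = (v : ℤ) ^ 4 + 1 := by
    rw [← hM8, ← ev8, Int.natCast_natAbs, abs_of_pos (ev_pos (by norm_num) _), hv]
  have h12 : (M12 : ℤ) = (v : ℤ) ^ 4 - (v : ℤ) ^ 2 + 1 := by
    rw [← hM12, ← ev12, Int.natCast_natAbs, abs_of_pos (ev_pos (by norm_num) _), hv]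
  rw [hM8, hv] at T8
  rw [hM12, hv] at T12
  have L3 : Lam p q M3 := h.lam hP g3 (Or.inl (hcop (k := 3)
    (dvd_pow_sub_one (by omega) (c := (v : ℤ) - 1) (by rw [hM3]; ring)) (by norm_num)))
  have L6 : Lam p q M6 := h.lam hP g6 (Or.inl (hcop (k := 6)
    (dvd_pow_sub_one (by omega) (c := ((v : ℤ) + 1) * ((v : ℤ) ^ 3 - 1)) (by rw [hM6]; ring)) (by norm_num)))
  have c36 : Nat.Coprime M3 M6 := cop_pm hM3 hM6
  have L36 := L3.mul L6 c36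
  obtain ⟨M36, hM36⟩ : ∃ M, M = M3 * M6 := ⟨_, rfl⟩
  rw [← hM36] at L36
  have h36 : (M36 : ℤ) = ((v : ℤ) ^ 2) ^ 2 + (v : ℤ) ^ 2 + 1 := by
    rw [hM36]; push_cast; rw [hM3, hM6]; ring
  have h12' : (M12 : ℤ) = ((v : ℤ) ^ 2) ^ 2 - (v : ℤ) ^ 2 + 1 := by rw [h12]; ring
  have hx4 : (4 : ℤ) ≤ (v : ℤ) ^ 2 := by nlinarith
  obtain ⟨r, hr, hr2, hrR, hrS⟩ := h.exists_prime hP
  have key : ∀ {Rr N : ℤ}, (R q : ℤ) = Rr → (N : ℤ) ^ 2 < 2 * (R q : ℤ) ^ 3 → 2 * Rr ^ 3 ≤ N ^ 2 → False := by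
    intro Rr N h1 h2 h3
    rw [h1] at h2
    exact absurd h2 (not_lt.2 h3)
  rcases hod r hr hrR with h1 | h1
  · -- `R = Φ₈`
    have hR := R_eq_tor hP h T8 hr hrR h1
    have L12 : Lam p q M12 := h.lam hP T12.ex (Or.inl (by
      rw [hR]
      refine cop_int (x := 1 - (v : ℤ) ^ 2) (y := (v : ℤ) ^ 2) ?_
      rw [h8, h12]; ring))
    have L := L36.mul L12 (cop_pm h36 h12')
    have hz := hP.size L
    refine key (Rr := ((v : ℤ) ^ 2) ^ 2 + 1) (N := (((v : ℤ) ^ 2) ^ 2 + (v : ℤ) ^ 2 + 1) * (((v : ℤ) ^ 2) ^ 2 - (v : ℤ) ^ 2 + 1))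
      (by rw [hR, h8]; ring) ?_ ?_
    · have : ((M36 * M12 : ℕ) : ℤ) ^ 2 < 2 * (R q : ℤ) ^ 3 := by exact_mod_cast hz
      rw [Nat.cast_mul, h36, h12'] at this
      exact this
    · generalize (v : ℤ) ^ 2 = x at hx4
      obtain ⟨t, rfl⟩ : ∃ t, x = t + 4 := ⟨x - 4, by ring⟩
      have ht : 0 ≤ t := by linarith
      have e := fun k : ℕ => pow_nonneg ht k
      nlinarith [e 1, e 2, e 3, e 4, e 5, e 6, e 7, e 8]
  · -- `R = Φ₁₂`
    have hR := R_eq_tor hP h T12 hr hrR h1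
    have L8 : Lam p q M8 := h.lam hP T8.ex (Or.inl (by
      rw [hR]
      refine cop_int (x := (v : ℤ) ^ 2) (y := 1 - (v : ℤ) ^ 2) ?_
      rw [h8, h12]; ring))
    have L := L36.mul L8 (cop_int (x := - (v : ℤ) ^ 2) (y := 1 + (v : ℤ) ^ 2) (by rw [h36, h8]; ring))
    have hz := hP.size L
    refine key (Rr := ((v : ℤ) ^ 2) ^ 2 - (v : ℤ) ^ 2 + 1) (N := (((v : ℤ) ^ 2) ^ 2 + (v : ℤ) ^ 2 + 1) * (((v : ℤ) ^ 2) ^ 2 + 1))
      (by rw [hR, h12']) ?_ ?_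
    · have : ((M36 * M8 : ℕ) : ℤ) ^ 2 < 2 * (R q : ℤ) ^ 3 := by exact_mod_cast hz
      rw [Nat.cast_mul, h36, h8] at this
      have e : (v : ℤ) ^ 4 = ((v : ℤ) ^ 2) ^ 2 := by ring
      rw [e] at this
      exact this
    · generalize (v : ℤ) ^ 2 = x at hx4
      obtain ⟨t, rfl⟩ : ∃ t, x = t + 4 := ⟨x - 4, by ring⟩
      have ht : 0 ≤ t := by linarith
      have e := fun k : ℕ => pow_nonneg ht k
      nlinarith [e 1, e 2, e 3, e 4, e 5, e 6, e 7, e 8]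

end Cfsg.Agent.H371.P4
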