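import Cfsg.Agent.H371.P4.Tor
import Cfsg.Agent.H371.Core.Fam

/-!
# S3591: `G₂(v)` (helper371)
-/

set_option autoImplicit false
set_option linter.unusedSectionVars false

universe u

namespace Cfsg.Agent.H371.P4

open CoxeterSystem Subgroup Cfsg Cfsg.Lie Cfsg.Lie.ChevalleyDatum
open Cfsg.Agent.ChevalleyStructure.CoxeterGeomTypes
open Cfsg.Agent.Nodes.RGDChev
open Cfsg.Agent.BpExc.RowsUntw Cfsg.Agent.BpExc.FamInst
open Cfsg.Agent.H378 Cfsg.Agent.H378.SmallTor Cfsg.Agent.H378.AdjTab Cfsg.Agent.H378.CycTab Cfsg.Agent.H378.ExcAdj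
open Cfsg.Agent.H379.P4 Cfsg.Agent.H371.CycEval
open Cfsg.Agent.H371.Core (Tor tor_G2_3 tor_G2_6 exists_orderOf_tor)
open Cfsg.Agent.H129.WData Cfsg.Agent.H493.PGTorus

variable {p q : ℕ}

theorem eig1 : EigOK (hd ([] : List (Fin 2 × Mat 2))) c1 (![![1, 0]] : Fin (0 + 1) → Fin 2 → ℤ) ![1, 0] := by
  decide +kernel

theorem order_G2 (F : Type u) [Field F] [Finite F] :
    (∃ g : ↥(chevG2.group F), orderOf g = Nat.card F - 1) ∧ (∃ g : ↥(chevG2.group F), orderOf g = Nat.card F + 1) := by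
  let cs : CoxeterSystem CoxeterMatrix.G₂ CoxeterMatrix.G₂.Group := CoxeterMatrix.G₂.toCoxeterSystem
  have := finite_W g2T cs
  have hF : 1 < Nat.card F := Finite.one_lt_card
  constructor
  · refine exists_orderOf_tor g2T cs inv_G2 AdjG2.hA (L := []) trivial eig1 (by omega) ?_
    rw [pv1, Nat.cast_sub hF.le, Nat.cast_one]
  · refine exists_orderOf_tor g2T cs inv_G2 AdjG2.hA AdjG2.row2.1 AdjG2.row2.2.2 (by omega) ?_
    rw [pv2, Nat.cast_add, Nat.cast_one]

theorem size_aux {a b L : ℕ} {c : ℕ} (h : Nat.gcd a b ∣ c) (hc : 0 < c) (hL : L = Nat.lcm a b) : a * b ≤ c * L := by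
  rw [hL, ← Nat.gcd_mul_lcm a b]
  exact Nat.mul_le_mul_right _ (Nat.le_of_dvd hc h)

theorem num_a {w L : ℕ} (hw : 10 ≤ w) (h1 : (w * w + w + 1) * w * (w + 2) ≤ 6 * L)
    (h2 : L ^ 2 < 2 * (w * w + 3 * w + 3) ^ 3) : False := by
  obtain ⟨t, rfl⟩ : ∃ t, w = t + 10 := ⟨w - 10, by omega⟩
  have h3 := Nat.pow_le_pow_left h1 2
  have h4 : (((t + 10) * (t + 10) + (t + 10) + 1) * (t + 10) * (t + 10 + 2)) ^ 2 <
      72 * ((t + 10) * (t + 10) + 3 * (t + 10) + 3) ^ 3 := by
    calc _ ≤ (6 * L) ^ 2 := h3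
      _ = 36 * L ^ 2 := by ring
      _ < 36 * (2 * ((t + 10) * (t + 10) + 3 * (t + 10) + 3) ^ 3) := by omega
      _ = _ := by ring
  have e := fun k : ℕ => Nat.zero_le (t ^ k)
  nlinarith [e 1, e 2, e 3, e 4, e 5, e 6, e 7, e 8]

theorem num_b {w L : ℕ} (hw : 10 ≤ w) (h1 : (w * w + 3 * w + 3) * (w + 2) * w ≤ 6 * L)
    (h2 : L ^ 2 < 2 * (w * w + w + 1) ^ 3) : False := by
  refine num_a (L := L) hw ?_ ?_
  · refine le_trans ?_ h1
    have : (w * w + w + 1) * w * (w + 2) = (w * w + w + 1) * (w + 2) * w := by ring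
    rw [this]
    gcongr <;> omega
  · refine h2.trans_le ?_
    gcongr <;> omega

/-- small values -/
theorem small {c : ℕ} (hP : Par p q) (h : R q = c) (hc : c ∈ [13, 21, 31, 43, 57, 73, 91, 111]) : False := by
  have h1 := hP.R_big
  rw [h] at h1
  fin_cases hc
  · omega
  · exact R_not hP h 4 6 (by norm_num)
  · exact R_not hP h 5 7 (by norm_num)
  · exact R_not hP h 6 9 (by norm_num)
  · exact R_not hP h 7 10 (by norm_num)
  · exact R_not hP h 8 12 (by norm_num)
  · exact R_not hP h 9 13 (by norm_num)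
  · exact R_not hP h 10 14 (by norm_num)

theorem g2 {p q : ℕ} (hP : Par p q) {F : Type u} [Field F] [Fintype F] (h : Hyp p q ↥(Cfsg.Lie.chevG2.group F))
    (hq : 3 ≤ Fintype.card F) : False := by
  obtain ⟨w, hw⟩ : ∃ w, Nat.card F = w + 1 := ⟨Nat.card F - 1, by rw [Nat.card_eq_fintype_card]; omega⟩
  have hw2 : 2 ≤ w := by rw [Nat.card_eq_fintype_card] at hw; omega
  have hod : ∀ r : ℕ, r.Prime → r ∣ R q → od (Nat.card F) r = 3 ∨ od (Nat.card F) r = 6 := by
    intro r hr hrR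
    rcases adj_G2 F hr (hrR.trans h.dvd_card) with h1 | h1 | h1
    · exact absurd (h1 ▸ hrR) hP.two
    · exact absurd h1 (not_adj_two hP h hr hrR)
    · exact h1
  have hcop : ∀ {M k : ℕ}, M ∣ (Nat.card F) ^ k - 1 → ¬ 3 ∣ k → Nat.Coprime (R q) M := by
    intro M k hM hk
    refine Nat.coprime_of_dvd fun r hr h1 h2 => hk ?_
    have h3 := od_dvd (by omega) (h2.trans hM)
    rcases hod r hr h1 with h4 | h4 <;> rw [h4] at h3
    · exact h3
    · exact (by norm_num : 3 ∣ 6).trans h3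
  have h3 : (((ev 3 (Nat.card F : ℕ)).natAbs : ℕ) : ℤ) = (Nat.card F : ℤ) ^ 2 + Nat.card F + 1 := by
    rw [← ev3, Int.natCast_natAbs, abs_of_pos (ev_pos (by norm_num) _)]
  have h6 : (((ev 6 (Nat.card F : ℕ)).natAbs : ℕ) : ℤ) = (Nat.card F : ℤ) ^ 2 - Nat.card F + 1 := by
    rw [← ev6, Int.natCast_natAbs, abs_of_pos (ev_pos (by norm_num) _)]
  have T3 := tor_G2_3 F
  have T6 := tor_G2_6 F
  have h3' : (ev 3 (Nat.card F : ℕ)).natAbs = w * w + 3 * w + 3 := by
    have : ((w * w + 3 * w + 3 : ℕ) : ℤ) = (Nat.card F : ℤ) ^ 2 + Nat.card F + 1 := by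
      rw [hw]; push_cast; ring
    rw [← this] at h3
    exact_mod_cast h3
  have h6' : (ev 6 (Nat.card F : ℕ)).natAbs = w * w + w + 1 := by
    have : ((w * w + w + 1 : ℕ) : ℤ) = (Nat.card F : ℤ) ^ 2 - Nat.card F + 1 := by
      rw [hw]; push_cast; ring
    rw [← this] at h6
    exact_mod_cast h6
  rw [h3'] at T3
  rw [h6'] at T6
  obtain ⟨hm, hp⟩ := order_G2 F
  have e1 : Nat.card F - 1 = w := by omega
  have e2 : Nat.card F + 1 = w + 2 := by omega
  rw [e1] at hm
  rw [e2] at hp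
  have Lm : Lam p q w := h.lam hP hm (Or.inl (hcop (k := 1) (by rw [pow_one, e1]) (by norm_num)))
  have Lp : Lam p q (w + 2) := h.lam hP hp (Or.inl (hcop (k := 2) (by
    rw [hw]
    refine ⟨w, ?_⟩
    have : (w + 1) ^ 2 = (w + 2) * w + 1 := by ring
    omega) (by norm_num)))
  obtain ⟨r, hr, hr2, hrR, hrS⟩ := h.exists_prime hP
  -- the numbers
  have hc36 : Nat.Coprime (w * w + 3 * w + 3) (w * w + w + 1) := by
    refine Nat.coprime_of_dvd fun r hr h1 h2 => ?_
    have h3 : r ∣ 2 * (w + 1) := by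
      have : w * w + 3 * w + 3 = (w * w + w + 1) + 2 * (w + 1) := by ring
      rw [this] at h1
      exact (Nat.dvd_add_right h2).1 h1
    have h4 : ¬ r ∣ w + 1 := by
      intro h4
      have : w * w + w + 1 = (w + 1) * w + 1 := by ring
      rw [this] at h2
      exact hr.one_lt.ne' (Nat.dvd_one.1 ((Nat.dvd_add_right (h4.mul_right _)).1 h2))
    have h5 := (hr.dvd_mul.1 h3).resolve_right h4
    rw [(Nat.prime_dvd_prime_iff_eq hr Nat.prime_two).1 h5] at h2 h4
    have h7 : (w * w + w) % 2 = 0 := by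
      have : w * w + w = w * (w + 1) := by ring
      rw [this]
      exact Nat.even_iff.1 (Nat.even_mul_succ_self w)
    omega
  rcases hod r hr hrR with h1 | h1
  · -- `R = Φ₃`
    have hR := R_eq_tor hP h T3 hr hrR h1
    have L6 : Lam p q (w * w + w + 1) := h.lam hP T6.ex (Or.inl (by rw [hR]; exact hc36))
    have L1 : Lam p q ((w * w + w + 1) * w) := L6.mul Lm (by
      have : w * w + w + 1 = 1 + (w + 1) * w := by ring
      rw [this]
      exact (Nat.coprime_add_mul_right_left 1 w (w + 1)).2 (Nat.coprime_one_left w))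
    have L2 := L1.lcm Lp
    have hg : Nat.gcd ((w * w + w + 1) * w) (w + 2) ∣ 6 := by
      have a1 := Nat.gcd_dvd_left ((w * w + w + 1) * w) (w + 2)
      have a2 := Nat.gcd_dvd_right ((w * w + w + 1) * w) (w + 2)
      refine (Nat.dvd_add_right a1).1 ?_
      refine a2.trans ?_
      have : ((w + 2 : ℕ) : ℤ) ∣ (((w * w + w + 1) * w + 6 : ℕ) : ℤ) := ⟨(w : ℤ) ^ 2 - w + 3, by push_cast; ring⟩
      exact Int.natCast_dvd_natCast.1 this
    have hs := size_aux hg (by norm_num) rfl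
    have hz := hP.size L2
    rw [hR] at hz
    by_cases h10 : 10 ≤ w
    · exact num_a h10 hs hz
    · refine small hP hR ?_
      interval_cases w <;> simp
  · have hR := R_eq_tor hP h T6 hr hrR h1
    have L3 : Lam p q (w * w + 3 * w + 3) := h.lam hP T3.ex (Or.inl (by rw [hR]; exact hc36.symm))
    have L1 : Lam p q ((w * w + 3 * w + 3) * (w + 2)) := L3.mul Lp (by
      have : w * w + 3 * w + 3 = 1 + (w + 1) * (w + 2) := by ring
      rw [this]
      exact (Nat.coprime_add_mul_right_left 1 (w + 2) (w + 1)).2 (Nat.coprime_one_left (w + 2)))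
    have L2 := L1.lcm Lm
    have hg : Nat.gcd ((w * w + 3 * w + 3) * (w + 2)) w ∣ 6 := by
      have a1 := Nat.gcd_dvd_left ((w * w + 3 * w + 3) * (w + 2)) w
      have a2 := Nat.gcd_dvd_right ((w * w + 3 * w + 3) * (w + 2)) w
      have a3 : (w * w + 3 * w + 3) * (w + 2) = w * (w * w + 5 * w + 9) + 6 := by ring
      rw [a3] at a1
      rw [a3]
      rw [a3] at a2
      exact (Nat.dvd_add_right (a2.mul_right _)).1 a1
    have hs := size_aux hg (by norm_num) rfl
    have hz := hP.size L2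
    rw [hR] at hz
    by_cases h10 : 10 ≤ w
    · exact num_b h10 hs hz
    · by_cases h2 : w = 2
      · have := hP.R_big
        rw [hR, h2] at this
        norm_num at this
      · refine small hP hR ?_
        interval_cases w <;> simp at h2 ⊢

end Cfsg.Agent.H371.P4
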